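import Cfsg.Agent.H837.JM.Math
import Cfsg.Agent.Cit.Eleven
import Cfsg.Agent.Lib.GenFitting

/-!
# S5925 box N3: the row `F*(H) ≅ M11` (helper837)

If `F*(H) ≅ M11` then `H = F*(H)` and `H` is the group of permutations of the 12 points `0, …, 10, 11 = ∞` generated by
`x = (i ↦ i+1)`, `y = (i ↦ 3i)`, `t`, `f` (letters 0, 1, 2, 3); every relation between words in these letters is checked by the
Bool test `eqP`.  `⟨x, y, t⟩ = L₂(11)` is the stabiliser of `∞`, `A_I = ⟨y, t, x t x⁻¹⟩ = A₅` is the stabiliser of `∞` and `0`,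
and `f` normalises `A_I` (`f` swaps `∞` and `0`).
-/

set_option autoImplicit false

namespace Cfsg.Agent.H837.E83.NM11

open Cfsg Cfsg.Agent.H837.JM

/-! ### The words -/

/-- the four tables -/
def tab : ℕ → List ℕ
  | 0 => [1, 2, 3, 4, 5, 6, 7, 8, 9, 10, 0, 11]
  | 1 => [0, 3, 6, 9, 1, 4, 7, 10, 2, 5, 8, 11]
  | 2 => [0, 9, 6, 3, 5, 4, 2, 8, 7, 1, 10, 11]
  | 3 => [11, 6, 1, 10, 8, 7, 9, 4, 5, 2, 3, 0]
  | _ => [0, 1, 2, 3, 4, 5, 6, 7, 8, 9, 10, 11]

/-- the action of a letter on the points `0, …, 11` -/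
def ap (l i : ℕ) : ℕ := (tab l).getD i 0

/-- the action of a word on the points -/
def ev (w : List ℕ) (i : ℕ) : ℕ := w.foldr (fun l j => ap l j) i

/-- the test for the equality of two words in `M11` -/
def eqP (w w' : List ℕ) : Bool := (List.range 12).all fun i => ev w i == ev w' i

/-- the letters in `M11` -/
def let11 : ℕ → Equiv.Perm GolayPt
  | 0 => Math.X
  | 1 => Math.F
  | 2 => Math.W
  | 3 => Math.U
  | _ => 1

/-- the twelve points of the second orbit of `M11` -/
def pt : ℕ → GolayPt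
  | 0 => some 15
  | 1 => some 7
  | 2 => some 14
  | 3 => some 5
  | 4 => some 10
  | 5 => some 20
  | 6 => some 17
  | 7 => some 11
  | 8 => some 22
  | 9 => some 21
  | 10 => some 19
  | _ => none

theorem let11_mem (l : ℕ) : let11 l ∈ Spor.M11 := by
  match l with
  | 0 => exact Math.X_mem11
  | 1 => exact Math.F_mem11
  | 2 => exact Math.W_mem11
  | 3 => exact Math.U_mem11
  | (n + 4) => exact Spor.M11.one_mem

theorem ap_lt (l : ℕ) {i : ℕ} (hi : i < 12) : ap l i < 12 := by
  have h : ∀ l : Fin 5, ∀ i : Fin 12, ap l i < 12 := by decide +kernel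
  rcases Nat.lt_or_ge l 5 with h1 | h1
  · exact h ⟨l, h1⟩ ⟨i, hi⟩
  · obtain ⟨n, rfl⟩ := Nat.exists_eq_add_of_le' h1
    exact h 4 ⟨i, hi⟩

theorem let11_pt (l : ℕ) {i : ℕ} (hi : i < 12) : let11 l (pt i) = pt (ap l i) := by
  have h : ∀ l : Fin 5, ∀ i : Fin 12, let11 l (pt i) = pt (ap l i) := by decide +kernel
  rcases Nat.lt_or_ge l 5 with h1 | h1
  · exact h ⟨l, h1⟩ ⟨i, hi⟩
  · obtain ⟨n, rfl⟩ := Nat.exists_eq_add_of_le' h1
    exact h 4 ⟨i, hi⟩

theorem pt_inj {i j : ℕ} (hi : i < 12) (hj : j < 12) (h : pt i = pt j) : i = j := by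
  have h1 : ∀ i j : Fin 12, pt i = pt j → i = j := by decide +kernel
  exact congrArg Fin.val (h1 ⟨i, hi⟩ ⟨j, hj⟩ h)

theorem ev_lt (w : List ℕ) {i : ℕ} (hi : i < 12) : ev w i < 12 := by
  induction w with
  | nil => exact hi
  | cons l w ih => exact ap_lt l ih

theorem ev_pt (w : List ℕ) {i : ℕ} (hi : i < 12) : (w.map let11).prod (pt i) = pt (ev w i) := by
  induction w with
  | nil => rfl
  | cons l w ih =>
    rw [List.map_cons, List.prod_cons, Equiv.Perm.mul_apply, ih, let11_pt l (ev_lt w hi)]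
    rfl

/-- the pointwise stabiliser in `M11` of the twelve points -/
def Ker : Subgroup Spor.M11 where
  carrier := {g | ∀ i < 12, (g : Equiv.Perm GolayPt) (pt i) = pt i}
  mul_mem' {a b} ha hb i hi := by
    show (a : Equiv.Perm GolayPt) ((b : Equiv.Perm GolayPt) (pt i)) = pt i
    rw [hb i hi, ha i hi]
  one_mem' i hi := rfl
  inv_mem' {a} ha i hi := by
    show (a : Equiv.Perm GolayPt)⁻¹ (pt i) = pt i
    rw [Equiv.Perm.inv_eq_iff_eq, ha i hi]

/-- `M11` preserves the twelve points -/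
theorem stab {g : Equiv.Perm GolayPt} (hg : g ∈ Spor.M11) : ∀ i < 12, ∃ j < 12, g (pt i) = pt j := by
  rw [← Math.closure11] at hg
  induction hg using Subgroup.closure_induction with
  | mem g hg =>
    intro i hi
    rcases hg with rfl | rfl
    · exact ⟨ap 0 i, ap_lt 0 hi, let11_pt 0 hi⟩
    · exact ⟨ap 3 i, ap_lt 3 hi, let11_pt 3 hi⟩
  | one => exact fun i hi => ⟨i, hi, rfl⟩
  | mul a b _ _ ha hb =>
    intro i hi
    obtain ⟨j, hj, h⟩ := hb i hi
    obtain ⟨k, hk, h'⟩ := ha j hj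
    exact ⟨k, hk, by rw [Equiv.Perm.mul_apply, h, h']⟩
  | inv a _ ha =>
    intro i hi
    classical
    choose! s hs hs' using ha
    have hinj : Function.Injective (fun i : Fin 12 => (⟨s i, hs i i.2⟩ : Fin 12)) := by
      intro i j hij
      have h1 : s i = s j := congrArg Fin.val hij
      have h2 : a (pt i) = a (pt j) := by rw [hs' i i.2, hs' j j.2, h1]
      exact Fin.ext (pt_inj i.2 j.2 (a.injective h2))
    obtain ⟨j, hj⟩ := (Finite.injective_iff_surjective.1 hinj) ⟨i, hi⟩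
    have h1 : s j = i := congrArg Fin.val hj
    refine ⟨j, j.2, ?_⟩
    rw [Equiv.Perm.inv_eq_iff_eq, hs' j j.2, h1]

theorem Ker_normal : Ker.Normal := by
  refine ⟨fun n hn g i hi => ?_⟩
  obtain ⟨j, hj, h⟩ := stab (g := (g : Equiv.Perm GolayPt)⁻¹) (inv_mem g.2) i hi
  show (g : Equiv.Perm GolayPt) ((n : Equiv.Perm GolayPt) ((g : Equiv.Perm GolayPt)⁻¹ (pt i))) = pt i
  rw [h, hn j hj, ← h]
  exact Equiv.apply_symm_apply (g : Equiv.Perm GolayPt) (pt i)

theorem Ker_eq : Ker = ⊥ := by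
  have := H807.El.simple_M11
  rcases Ker_normal.eq_bot_or_eq_top with h | h
  · exact h
  · exfalso
    have h1 : (⟨Math.X, Math.X_mem11⟩ : Spor.M11) ∈ Ker := h ▸ Subgroup.mem_top _
    have h2 : Math.X (pt 0) = pt 0 := h1 0 (by norm_num)
    revert h2
    decide +kernel

/-- the words in `M11` -/
theorem eqP_iff11 (w w' : List ℕ) : eqP w w' = true ↔ (w.map let11).prod = (w'.map let11).prod := by
  have hm : ∀ w : List ℕ, (w.map let11).prod ∈ Spor.M11 := fun w =>
    list_prod_mem (fun g hg => by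
      obtain ⟨l, -, rfl⟩ := List.mem_map.1 hg
      exact let11_mem l)
  constructor
  · intro h
    have h1 : ∀ i < 12, ev w i = ev w' i := by
      intro i hi
      have h2 := List.all_eq_true.1 h i (List.mem_range.2 hi)
      exact beq_iff_eq.1 h2
    have h2 : (⟨(w'.map let11).prod⁻¹ * (w.map let11).prod, mul_mem (inv_mem (hm w')) (hm w)⟩ : Spor.M11) ∈ Ker := by
      intro i hi
      show (w'.map let11).prod⁻¹ ((w.map let11).prod (pt i)) = pt i
      rw [Equiv.Perm.inv_eq_iff_eq, ev_pt w hi, ev_pt w' hi, h1 i hi]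
    rw [Ker_eq, Subgroup.mem_bot] at h2
    have h3 : (w'.map let11).prod⁻¹ * (w.map let11).prod = 1 := congrArg Subtype.val h2
    exact (inv_mul_eq_one.1 h3).symm
  · intro h
    refine List.all_eq_true.2 fun i hi => beq_iff_eq.2 ?_
    have hi' : i < 12 := List.mem_range.1 hi
    refine pt_inj (ev_lt w hi') (ev_lt w' hi') ?_
    rw [← ev_pt w hi', ← ev_pt w' hi', h]

/-! ### The words in an abstract group -/

/-- `v 0, v 1, v 2, v 3` are `x, y, t, f` in a group `M11` (the whole of `H`) -/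
structure M11Gen {H : Type*} [Group H] (v : ℕ → H) : Prop where
  /-- the letters `x, f` generate -/
  gen2 : Subgroup.closure {v 0, v 3} = ⊤
  /-- the letters `x, y, t, f` generate -/
  gen4 : Subgroup.closure {v 0, v 1, v 2, v 3} = ⊤
  /-- **all relations** -/
  rel : ∀ w w' : List ℕ, eqP w w' = true ↔ (w.map v).prod = (w'.map v).prod
  /-- the other letters are trivial -/
  triv : ∀ n, 4 ≤ n → v n = 1

theorem list_map_comp {A B : Type*} [Group A] [Group B] (φ : A →* B) (u : ℕ → A) (w : List ℕ) :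
    (w.map fun n => φ (u n)).prod = φ ((w.map u).prod) := by
  rw [map_list_prod, List.map_map]
  rfl

/-- `M11` itself -/
theorem M11Gen.model : M11Gen (fun n => (⟨let11 n, let11_mem n⟩ : Spor.M11)) := by
  have h2 : Subgroup.closure {(⟨let11 0, let11_mem 0⟩ : Spor.M11), ⟨let11 3, let11_mem 3⟩} = ⊤ := by
    refine (Subgroup.map_injective Spor.M11.subtype_injective) ?_
    rw [MonoidHom.map_closure, Set.image_pair, ← MonoidHom.range_eq_map, Subgroup.range_subtype]
    exact Math.closure11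
  refine ⟨h2, ?_, fun w w' => ?_, fun n hn => Subtype.ext ?_⟩
  · rw [eq_top_iff, ← h2]
    refine Subgroup.closure_mono ?_
    rintro g (rfl | rfl)
    · exact Or.inl rfl
    · exact Or.inr (Or.inr (Or.inr rfl))
  · rw [eqP_iff11, ← Spor.M11.subtype_injective.eq_iff, ← list_map_comp, ← list_map_comp]
    rfl
  · obtain ⟨m, rfl⟩ := Nat.exists_eq_add_of_le' hn
    rfl

/-- transport by an isomorphism -/
theorem M11Gen.map {A B : Type*} [Group A] [Group B] {v : ℕ → A} (h : M11Gen v) (e : A ≃* B) :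
    M11Gen (fun n => e (v n)) := by
  refine ⟨?_, ?_, fun w w' => ?_, fun n hn => by rw [h.triv n hn, map_one]⟩
  · have h1 := congrArg (Subgroup.map e.toMonoidHom) h.gen2
    rw [MonoidHom.map_closure, Set.image_pair, ← MonoidHom.range_eq_map, MonoidHom.range_eq_top.2 e.surjective] at h1
    exact h1
  · have h1 := congrArg (Subgroup.map e.toMonoidHom) h.gen4
    rw [MonoidHom.map_closure, Set.image_insert_eq, Set.image_insert_eq, Set.image_pair, ← MonoidHom.range_eq_map,
      MonoidHom.range_eq_top.2 e.surjective] at h1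
    exact h1
  · rw [h.rel, ← e.injective.eq_iff]
    have h1 := list_map_comp e.toMonoidHom v w
    have h2 := list_map_comp e.toMonoidHom v w'
    exact (show e _ = e _ ↔ _ by rw [show (w.map fun n => e (v n)).prod = e ((w.map v).prod) from h1,
      show (w'.map fun n => e (v n)).prod = e ((w'.map v).prod) from h2])

namespace M11Gen

variable {H : Type*} [Group H] {v : ℕ → H} (h : M11Gen v)

include h

/-- a relation between positive words -/
theorem eq (w w' : List ℕ) (he : eqP w w' = true) : (w.map v).prod = (w'.map v).prod := (h.rel w w').1 he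

/-- an inequality between positive words -/
theorem ne (w w' : List ℕ) (he : eqP w w' = false) : (w.map v).prod ≠ (w'.map v).prod := fun h1 => by
  have h2 := (h.rel w w').2 h1
  rw [he] at h2
  exact absurd h2 (by decide)

/-- every element is a positive word -/
theorem exists_word [Finite H] (g : H) : ∃ w : List ℕ, (∀ l ∈ w, l = 0 ∨ l = 3) ∧ (w.map v).prod = g := by
  have hg : g ∈ Subgroup.closure {v 0, v 3} := h.gen2 ▸ Subgroup.mem_top g
  rw [← Subgroup.mem_toSubmonoid, Subgroup.closure_toSubmonoid_of_finite] at hg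
  induction hg using Submonoid.closure_induction with
  | mem g hg =>
    rcases hg with rfl | rfl
    · exact ⟨[0], by simp, by simp⟩
    · exact ⟨[3], by simp, by simp⟩
  | one => exact ⟨[], by simp, rfl⟩
  | mul a b _ _ ha hb =>
    obtain ⟨w, hw, rfl⟩ := ha
    obtain ⟨w', hw', rfl⟩ := hb
    refine ⟨w ++ w', fun l hl => ?_, by rw [List.map_append, List.prod_append]⟩
    rcases List.mem_append.1 hl with h1 | h1
    · exact hw l h1
    · exact hw' l h1

theorem x_pow : v 0 ^ 11 = 1 := by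
  simpa [← mul_assoc, pow_succ] using h.eq [0, 0, 0, 0, 0, 0, 0, 0, 0, 0, 0] [] (by decide +kernel)

theorem x_ne : v 0 ≠ 1 := by
  simpa using h.ne [0] [] (by decide +kernel)

theorem y_pow : v 1 ^ 5 = 1 := by
  simpa [← mul_assoc, pow_succ] using h.eq [1, 1, 1, 1, 1] [] (by decide +kernel)

theorem y_ne : v 1 ≠ 1 := by
  simpa using h.ne [1] [] (by decide +kernel)

theorem y_x : v 1 * v 0 * (v 1)⁻¹ = v 0 ^ 3 := by
  rw [mul_inv_eq_iff_eq_mul]
  simpa [← mul_assoc, pow_succ] using h.eq [1, 0] [0, 0, 0, 1] (by decide +kernel)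

theorem t_sq : v 2 * v 2 = 1 := by
  simpa using h.eq [2, 2] [] (by decide +kernel)

theorem t_ne : v 2 ≠ 1 := by
  simpa using h.ne [2] [] (by decide +kernel)

theorem t_y : v 2 * v 1 * v 2 = (v 1)⁻¹ := by
  rw [← mul_eq_one_iff_eq_inv]
  simpa [← mul_assoc] using h.eq [2, 1, 2, 1] [] (by decide +kernel)

theorem xt : (v 0 * v 2) ^ 3 = 1 := by
  simpa [← mul_assoc, pow_succ] using h.eq [0, 2, 0, 2, 0, 2] [] (by decide +kernel)

theorem f_sq : v 3 * v 3 = v 2 := by
  simpa using h.eq [3, 3] [2] (by decide +kernel)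

theorem f_y : v 3 * v 1 * (v 3)⁻¹ = v 1 ^ 2 := by
  rw [mul_inv_eq_iff_eq_mul]
  simpa [← mul_assoc, pow_succ] using h.eq [3, 1] [1, 1, 3] (by decide +kernel)

/-- `a = x t x⁻¹` is an involution of `A_I` -/
theorem a_eq : v 0 * v 2 * (v 0)⁻¹ = v 0 * v 2 * v 0 ^ 10 := by
  congr 1
  rw [inv_eq_iff_mul_eq_one, ← pow_succ', h.x_pow]

/-- `f a f⁻¹ = y a t y²` for `a = x t x⁻¹`: `f` normalises `A_I = ⟨y, t, a⟩` -/
theorem f_a : v 3 * (v 0 * v 2 * (v 0)⁻¹) * (v 3)⁻¹ = v 1 * (v 0 * v 2 * (v 0)⁻¹) * v 2 * v 1 ^ 2 := by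
  rw [mul_inv_eq_iff_eq_mul, h.a_eq]
  simpa [← mul_assoc, pow_succ] using
    h.eq [3, 0, 2, 0, 0, 0, 0, 0, 0, 0, 0, 0, 0] [1, 0, 2, 0, 0, 0, 0, 0, 0, 0, 0, 0, 0, 2, 1, 1, 3] (by decide +kernel)

end M11Gen

/-! ### The row -/

theorem nc11 : ¬ IsMulCommutative Spor.M11 := fun h => by
  have h1 := h.is_comm.comm (⟨Math.X, Math.X_mem11⟩ : Spor.M11) ⟨Math.F, Math.F_mem11⟩
  have h2 : Math.X * Math.F = Math.F * Math.X := congrArg Subtype.val h1
  revert h2
  decide +kernel

/-- **`F*(H) ≅ M11` implies `H = F*(H)`** (`Out(M11) = 1`) -/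
theorem fst_eq_top {H : Type*} [Group H] [Finite H] (hH : Spor.IsoM11 ↥(generalizedFittingSubgroup H)) :
    generalizedFittingSubgroup H = ⊤ := by
  have hnor : (generalizedFittingSubgroup H).Normal := Lib.GenFitting.genFitting_normal (G := H)
  rw [eq_top_iff]
  intro a _
  obtain ⟨g, hg⟩ := Cit.Eleven.aut_inner hH (MulAut.conjNormal a : MulAut ↥(generalizedFittingSubgroup H))
  have h1 : ∀ n : H, n ∈ generalizedFittingSubgroup H → a * n * a⁻¹ = (g : H) * n * (g : H)⁻¹ := by
    intro n hn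
    have h2 := DFunLike.congr_fun hg ⟨n, hn⟩
    have h3 := congrArg Subtype.val h2
    rw [MulAut.conjNormal_apply, MulAut.conj_apply] at h3
    exact h3
  have h2 : (g : H)⁻¹ * a ∈ generalizedFittingSubgroup H := by
    refine Lib.GenFitting.centralizer_genFitting_le (G := H) (Subgroup.mem_centralizer_iff.2 fun n hn => ?_)
    have h3 := h1 n hn
    have h4 : (g : H)⁻¹ * (a * n * a⁻¹) * a = n * ((g : H)⁻¹ * a) := by
      rw [h3]; group
    rw [← h4]
    group
  have h3 := mul_mem g.2 h2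
  rwa [mul_inv_cancel_left] at h3

/-- **S5925 box N3**: `F*(H) ≅ M11` gives generators of `H` satisfying all the relations of `x, y, t, f`. -/
theorem main {H : Type*} [Group H] [Finite H] (hH : Spor.IsoM11 ↥(generalizedFittingSubgroup H)) :
    ∃ v : ℕ → H, M11Gen v := by
  have h1 := fst_eq_top hH
  obtain ⟨e⟩ := hH
  exact ⟨_, M11Gen.model.map (e.symm.trans ((MulEquiv.subgroupCongr h1).trans Subgroup.topEquiv))⟩

/-- the same for a subgroup `H` of a group `G`: the elements in `G` -/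
theorem main_sub {G : Type*} [Group G] [Finite G] (H : Subgroup G)
    (hH : Spor.IsoM11 ↥(generalizedFittingSubgroup ↥H)) :
    ∃ v : ℕ → G, (∃ v' : ℕ → ↥H, M11Gen v' ∧ ∀ n, (v' n : G) = v n) ∧
      Subgroup.closure {v 0, v 1, v 2, v 3} = H ∧ Subgroup.closure {v 0, v 3} = H ∧
      (∀ w w' : List ℕ, eqP w w' = true ↔ (w.map v).prod = (w'.map v).prod) := by
  obtain ⟨v', h⟩ := main hH
  refine ⟨fun n => v' n, ⟨v', h, fun n => rfl⟩, ?_, ?_, fun w w' => ?_⟩
  · have h1 := congrArg (Subgroup.map H.subtype) h.gen4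
    rw [MonoidHom.map_closure, Set.image_insert_eq, Set.image_insert_eq, Set.image_pair, ← MonoidHom.range_eq_map,
      Subgroup.range_subtype] at h1
    exact h1
  · have h1 := congrArg (Subgroup.map H.subtype) h.gen2
    rw [MonoidHom.map_closure, Set.image_pair, ← MonoidHom.range_eq_map, Subgroup.range_subtype] at h1
    exact h1
  · rw [h.rel, ← H.subtype_injective.eq_iff, ← list_map_comp, ← list_map_comp]
    rfl

end Cfsg.Agent.H837.E83.NM11
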