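import Cfsg.Agent.H837.E83.NM11

/-!
# S5925 box N3: words with letters in `Fin 4` (form of `H114.E8L.BM`, `H114.E8L.BK`) (helper837)
-/

set_option autoImplicit false

namespace Cfsg.Agent.H837.E83.NM11

open Cfsg

/-- the test for words in `Fin 4` -/
def eqP4 (w w' : List (Fin 4)) : Bool := eqP (w.map Fin.val) (w'.map Fin.val)

theorem map_val {H : Type*} [Group H] (v : ℕ → H) (w : List (Fin 4)) :
    ((w.map Fin.val).map v).prod = (w.map ![v 0, v 1, v 2, v 3]).prod := by
  rw [List.map_map]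
  congr 1
  refine List.map_congr_left fun i _ => ?_
  fin_cases i <;> rfl

theorem M11Gen.rel4 {H : Type*} [Group H] {v : ℕ → H} (h : M11Gen v) (w w' : List (Fin 4)) :
    eqP4 w w' = true ↔ (w.map ![v 0, v 1, v 2, v 3]).prod = (w'.map ![v 0, v 1, v 2, v 3]).prod := by
  rw [eqP4, h.rel, map_val, map_val]

/-- **all relations between positive words** in the letters of `Fin 4`, for a subgroup -/
theorem main_sub4 {G : Type*} [Group G] [Finite G] (H : Subgroup G)
    (hH : Spor.IsoM11 ↥(generalizedFittingSubgroup ↥H)) :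
    ∃ x y t f : G, Subgroup.closure {x, y, t, f} = H ∧ Subgroup.closure {x, f} = H ∧
      (∀ w w' : List (Fin 4), eqP4 w w' = true ↔ (w.map ![x, y, t, f]).prod = (w'.map ![x, y, t, f]).prod) := by
  obtain ⟨v, -, h4, h2, h⟩ := main_sub H hH
  refine ⟨v 0, v 1, v 2, v 3, h4, h2, fun w w' => ?_⟩
  rw [eqP4, h, map_val, map_val]

end Cfsg.Agent.H837.E83.NM11
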